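import Mathlib
import Cfsg.Agent.Lib.Helper21.RealPB

set_option autoImplicit false

namespace Cfsg.Agent.Lib.Helper21.RealP

open Cfsg

/-! `gen p G = Subgroup.closure {g | ∃ k, orderOf g = p ^ k}` (def in RealPA). -/

theorem gen_normal (p : ℕ) (G : Type*) [Group G] : (gen p G).Normal := by
  constructor
  intro n hn g
  have h : gen p G ≤ (gen p G).comap (MulAut.conj g).toMonoidHom := by
    unfold gen
    rw [Subgroup.closure_le]
    rintro x ⟨k, hk⟩
    apply Subgroup.subset_closure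
    refine ⟨k, ?_⟩
    rw [← hk]
    exact (MulAut.conj g).orderOf_eq x
  exact h hn

theorem sylow_le_gen {G : Type*} [Group G] [Finite G] (p : ℕ) [Fact p.Prime] (P : Sylow p G) :
    (P : Subgroup G) ≤ gen p G := by
  intro x hx
  apply Subgroup.subset_closure
  obtain ⟨k, hk⟩ := (IsPGroup.iff_orderOf.mp P.2) ⟨x, hx⟩
  exact ⟨k, by rw [← hk, Subgroup.orderOf_mk]⟩

theorem odd_index_gen_two (G : Type*) [Group G] [Finite G] : Odd (gen 2 G).index := by
  obtain ⟨S⟩ : Nonempty (Sylow 2 G) := inferInstance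
  have h1 := Subgroup.index_dvd_of_le (sylow_le_gen 2 S)
  have h2 : Odd (S : Subgroup G).index := by
    rw [← Nat.not_even_iff_odd, even_iff_two_dvd]
    exact Sylow.not_dvd_index S
  exact Odd.of_dvd_nat h2 h1

/-- images of `p`-elements are `p`-elements -/
theorem map_gen_le {G : Type*} [Group G] [Finite G] (p : ℕ) [Fact p.Prime] (N : Subgroup G)
    [N.Normal] : (gen p G).map (QuotientGroup.mk' N) ≤ gen p (G ⧸ N) := by
  rw [Subgroup.map_le_iff_le_comap]
  unfold gen
  rw [Subgroup.closure_le]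
  rintro x ⟨k, hk⟩
  apply Subgroup.subset_closure
  have h1 : orderOf (QuotientGroup.mk' N x) ∣ p ^ k := hk ▸ orderOf_map_dvd _ x
  obtain ⟨j, -, hj⟩ := (Nat.dvd_prime_pow Fact.out).mp h1
  exact ⟨j, hj⟩

/-- `p`-elements of the quotient lift to `p`-elements (take a suitable power of any lift) -/
theorem gen_quot_le {G : Type*} [Group G] [Finite G] (p : ℕ) [Fact p.Prime] (N : Subgroup G)
    [N.Normal] : gen p (G ⧸ N) ≤ (gen p G).map (QuotientGroup.mk' N) := by
  have hp : p.Prime := Fact.out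
  conv_lhs => unfold gen
  rw [Subgroup.closure_le]
  rintro x ⟨k, hk⟩
  obtain ⟨g, rfl⟩ := QuotientGroup.mk_surjective x
  obtain ⟨a, m, hm, ho⟩ := Nat.exists_eq_pow_mul_and_not_dvd (orderOf_pos g).ne' p hp.ne_one
  have hcop : Nat.Coprime m (orderOf (g : G ⧸ N)) := by
    rw [hk]
    exact ((Nat.Prime.coprime_iff_not_dvd hp).mpr hm).symm.pow_right k
  obtain ⟨m', hm'⟩ := exists_pow_eq_self_of_coprime hcop
  have hm0 : m ≠ 0 := by
    rintro rfl
    exact hm (dvd_zero p)
  have h1 : orderOf (g ^ m) = p ^ a := by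
    rw [orderOf_pow_of_dvd hm0 ⟨p ^ a, by rw [ho, mul_comm]⟩, ho]
    exact Nat.mul_div_cancel _ (Nat.pos_of_ne_zero hm0)
  have h2 : orderOf ((g ^ m) ^ m') ∣ p ^ a := h1 ▸ orderOf_pow_dvd m'
  obtain ⟨j, -, hj⟩ := (Nat.dvd_prime_pow hp).mp h2
  refine ⟨(g ^ m) ^ m', Subgroup.subset_closure ⟨j, hj⟩, ?_⟩
  show (((g ^ m) ^ m' : G) : G ⧸ N) = _
  rw [QuotientGroup.mk_pow, QuotientGroup.mk_pow]
  exact hm'

theorem solvable_gen_quot {G : Type*} [Group G] [Finite G] (p : ℕ) [Fact p.Prime] (N : Subgroup G)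
    [N.Normal] (h : Group.IsSolvable ↥(gen p G)) : Group.IsSolvable ↥(gen p (G ⧸ N)) := by
  have h1 : Group.IsSolvable ↥((gen p G).map (QuotientGroup.mk' N)) :=
    Group.isSolvable_of_surjective
      (f := (QuotientGroup.mk' N).subgroupMap (gen p G))
      ((QuotientGroup.mk' N).subgroupMap_surjective (gen p G))
  exact Group.isSolvable_of_isSolvable_injective (f := Subgroup.inclusion (gen_quot_le p N))
    (Subgroup.inclusion_injective _)

theorem gen_gen_top (p : ℕ) (G : Type*) [Group G] : gen p ↥(gen p G) = ⊤ := by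
  have h := Subgroup.closure_closure_coe_preimage (k := {g : G | ∃ k : ℕ, orderOf g = p ^ k})
  have h2 : (Subtype.val ⁻¹' {g : G | ∃ k : ℕ, orderOf g = p ^ k} :
      Set ↥(Subgroup.closure {g : G | ∃ k : ℕ, orderOf g = p ^ k}))
      = {x | ∃ k : ℕ, orderOf x = p ^ k} := by
    ext x
    simp only [Set.mem_preimage, Set.mem_ofPred_eq, Subgroup.orderOf_coe]
  rw [h2] at h
  exact h

theorem map_gen_sub_le {G : Type*} [Group G] (p : ℕ) (K : Subgroup G) :
    (gen p ↥K).map K.subtype ≤ gen p G := by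
  rw [Subgroup.map_le_iff_le_comap]
  conv_lhs => unfold gen
  rw [Subgroup.closure_le]
  rintro x ⟨k, hk⟩
  apply Subgroup.subset_closure
  exact ⟨k, by rw [← hk]; exact Subgroup.orderOf_coe x⟩

theorem solvable_gen_sub {G : Type*} [Group G] (p : ℕ) (K : Subgroup G)
    (h : Group.IsSolvable ↥(gen p G)) : Group.IsSolvable ↥(gen p ↥K) := by
  have hmem : ∀ x : ↥(gen p ↥K), ((x : K) : G) ∈ gen p G := fun x =>
    map_gen_sub_le p K ⟨x.1, x.2, rfl⟩
  apply Group.isSolvable_of_isSolvable_injective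
    (f := (K.subtype.comp (gen p ↥K).subtype).codRestrict (gen p G) hmem)
  intro x y hxy
  have h1 := congrArg Subtype.val hxy
  exact Subtype.ext (Subtype.ext h1)

theorem map_gen_sub {G : Type*} [Group G] (p : ℕ) (U : Subgroup G) (h : gen p G ≤ U) :
    (gen p ↥U).map U.subtype = gen p G := by
  apply le_antisymm (map_gen_sub_le p U)
  conv_lhs => unfold gen
  rw [Subgroup.closure_le]
  rintro x ⟨k, hk⟩
  have hxU : x ∈ U := h (Subgroup.subset_closure ⟨k, hk⟩)
  exact ⟨⟨x, hxU⟩, Subgroup.subset_closure ⟨k, by rw [Subgroup.orderOf_mk, hk]⟩, rfl⟩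

end Cfsg.Agent.Lib.Helper21.RealP
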