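import Mathlib
import Cfsg.Agent.Lib.Helper21.RealPB
import Cfsg.Agent.S0887

set_option autoImplicit false

namespace Cfsg.Agent.Lib.Helper21.RealP

open Cfsg

/-- `RealPrime p` passes to quotients (inflation) -/
theorem realPrime_quot {G : Type*} [Group G] [Finite G] (p : ℕ) (N : Subgroup G) [N.Normal]
    (h : RealPrime p G) : RealPrime p (G ⧸ N) := by
  intro ψ hψ
  exact h ⟨fun g => (ψ : G ⧸ N → ℂ) (g : G ⧸ N), Cfsg.Agent.Lib.Helper82.isIrr_inflate ψ.2⟩
    (fun g => hψ _)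

/-- `RealPrime p` passes to normal subgroups of odd index -/
theorem realPrime_sub {G : Type*} [Group G] [Finite G] (p : ℕ) (K : Subgroup G) [K.Normal]
    (hodd : Odd K.index) (h : RealPrime p G) : RealPrime p ↥K := by
  classical
  have := Fintype.ofFinite G
  intro θ hθ hdvd
  obtain ⟨χ, hχr, hχc⟩ := Cfsg.Agent.Lib.Helper83.exists_real_over K hodd θ.2 hθ
  obtain ⟨hd1, -⟩ := Cfsg.Agent.S0887.result K χ χ.2 θ θ.2 hχc (charDegree (χ : G → ℂ))
    (charDegree (θ : K → ℂ)) (irr_one_eq_charDegree χ) (irr_one_eq_charDegree θ)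
  exact h χ hχr (hdvd.trans hd1)

end Cfsg.Agent.Lib.Helper21.RealP
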